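import Mathlib

/-!
# Some elements of the alternating group of degree five
-/

namespace Cfsg.Agent.H80.CritFive

open Equiv

/-- Two four-groups of the alternating group of degree five and an element of order three. -/
abbrev A5 : Type := alternatingGroup (Fin 5)

def a1 : A5 := ⟨swap 0 1 * swap 2 3, Equiv.Perm.mem_alternatingGroup.mpr (by decide)⟩
def a2 : A5 := ⟨swap 0 2 * swap 1 3, Equiv.Perm.mem_alternatingGroup.mpr (by decide)⟩
def a3 : A5 := ⟨swap 0 3 * swap 1 2, Equiv.Perm.mem_alternatingGroup.mpr (by decide)⟩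
def c1 : A5 := ⟨swap 0 1 * swap 2 4, Equiv.Perm.mem_alternatingGroup.mpr (by decide)⟩
def c2 : A5 := ⟨swap 0 2 * swap 1 4, Equiv.Perm.mem_alternatingGroup.mpr (by decide)⟩
def c3 : A5 := ⟨swap 0 4 * swap 1 2, Equiv.Perm.mem_alternatingGroup.mpr (by decide)⟩
def yy : A5 := ⟨swap 0 1 * swap 1 2, Equiv.Perm.mem_alternatingGroup.mpr (by decide)⟩

theorem ord2 : a1 * a1 = 1 ∧ a2 * a2 = 1 ∧ a3 * a3 = 1 ∧ c1 * c1 = 1 ∧ c2 * c2 = 1 ∧ c3 * c3 = 1 := by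
  decide

theorem ne_one : a1 ≠ 1 ∧ a2 ≠ 1 ∧ a3 ≠ 1 ∧ a1 ≠ a2 := by decide

theorem prods : a1 * a2 = a3 ∧ a2 * a1 = a3 ∧ c1 * c2 = c3 ∧ c2 * c1 = c3 := by decide

theorem ord3 : ((a1 * c1) ^ 3 = 1 ∧ a1 * c1 ≠ 1) ∧ ((a2 * c2) ^ 3 = 1 ∧ a2 * c2 ≠ 1) ∧
    ((a3 * c3) ^ 3 = 1 ∧ a3 * c3 ≠ 1) ∧ ((c1 * a1) ^ 3 = 1 ∧ c1 * a1 ≠ 1) ∧
    ((c2 * a2) ^ 3 = 1 ∧ c2 * a2 ≠ 1) ∧ ((c3 * a3) ^ 3 = 1 ∧ c3 * a3 ≠ 1) := by decide

theorem yy_ord : yy ^ 3 = 1 ∧ yy ≠ 1 := by decide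

/-- The inverse of `yy`. -/
def zz : A5 := yy * yy

theorem zz_ord : zz ^ 3 = 1 ∧ zz ≠ 1 := by decide

theorem zz_conj : zz * a1 * zz⁻¹ = a2 ∧ zz * a2 * zz⁻¹ = a3 ∧ a1 * zz = zz * a3 := by decide

theorem squaresA : ((a1 * yy) ^ 3 = 1 ∧ a1 * yy ≠ 1 ∧ a1 * yy * (a1 * yy) = a2 * (yy * yy)) ∧
    ((a2 * yy) ^ 3 = 1 ∧ a2 * yy ≠ 1 ∧ a2 * yy * (a2 * yy) = a3 * (yy * yy)) ∧
    ((a3 * yy) ^ 3 = 1 ∧ a3 * yy ≠ 1 ∧ a3 * yy * (a3 * yy) = a1 * (yy * yy)) := by decide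

theorem squaresC : ((c1 * yy) ^ 3 = 1 ∧ c1 * yy ≠ 1 ∧ c1 * yy * (c1 * yy) = c2 * (yy * yy)) ∧
    ((c2 * yy) ^ 3 = 1 ∧ c2 * yy ≠ 1 ∧ c2 * yy * (c2 * yy) = c3 * (yy * yy)) ∧
    ((c3 * yy) ^ 3 = 1 ∧ c3 * yy ≠ 1 ∧ c3 * yy * (c3 * yy) = c1 * (yy * yy)) := by decide

theorem five : (a1 * c2) ^ 5 = 1 ∧ a1 * c2 ≠ 1 := by decide

/-- The two four-groups generate. -/
theorem gen : Subgroup.closure ({a1, a2, c1, c2} : Set A5) = ⊤ := by
  have hcard : Nat.card A5 = 60 := by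
    rw [Nat.card_eq_fintype_card]; rfl
  refine Subgroup.eq_top_of_card_eq _ ?_
  set K := Subgroup.closure ({a1, a2, c1, c2} : Set A5) with hK
  have m1 : a1 ∈ K := Subgroup.subset_closure (by simp)
  have m2 : a2 ∈ K := Subgroup.subset_closure (by simp)
  have n1 : c1 ∈ K := Subgroup.subset_closure (by simp)
  have n2 : c2 ∈ K := Subgroup.subset_closure (by simp)
  have d4 : 4 ∣ Nat.card K := by
    let P : Subgroup A5 :=
      { carrier := {g | g = 1 ∨ g = a1 ∨ g = a2 ∨ g = a3}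
        one_mem' := Or.inl rfl
        mul_mem' := by
          rintro g h (rfl | rfl | rfl | rfl) (rfl | rfl | rfl | rfl) <;>
            simp only [Set.mem_setOf_eq] <;> decide
        inv_mem' := by
          rintro g (rfl | rfl | rfl | rfl) <;> simp only [Set.mem_setOf_eq] <;> decide }
    have hP : Nat.card P = 4 := by
      have : (P : Set A5) = ({1, a1, a2, a3} : Finset A5) := by
        ext g; simp [P]
      rw [← SetLike.coe_sort_coe, this, Nat.card_coe_set_eq, Set.ncard_coe_finset]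
      decide
    rw [← hP]
    refine Subgroup.card_dvd_of_le fun g hg => ?_
    rcases hg with rfl | rfl | rfl | rfl
    · exact one_mem _
    · exact m1
    · exact m2
    · rw [← prods.1]; exact mul_mem m1 m2
  have d3 : 3 ∣ Nat.card K := by
    have : orderOf (⟨a1 * c1, mul_mem m1 n1⟩ : K) = 3 := by
      rw [Subgroup.orderOf_mk]
      have : Fact (Nat.Prime 3) := ⟨Nat.prime_three⟩
      exact orderOf_eq_prime ord3.1.1 ord3.1.2
    exact (dvd_of_eq this.symm).trans (orderOf_dvd_natCard _)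
  have d5 : 5 ∣ Nat.card K := by
    have : orderOf (⟨a1 * c2, mul_mem m1 n2⟩ : K) = 5 := by
      rw [Subgroup.orderOf_mk]
      have : Fact (Nat.Prime 5) := ⟨Nat.prime_five⟩
      exact orderOf_eq_prime five.1 five.2
    exact (dvd_of_eq this.symm).trans (orderOf_dvd_natCard _)
  have h60 : 60 ∣ Nat.card K := by
    have := Nat.Coprime.mul_dvd_of_dvd_of_dvd (show Nat.Coprime (4 * 3) 5 by norm_num)
      (Nat.Coprime.mul_dvd_of_dvd_of_dvd (show Nat.Coprime 4 3 by norm_num) d4 d3) d5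
    simpa using this
  exact Nat.dvd_antisymm (Subgroup.card_subgroup_dvd_card K) (by rw [hcard]; exact h60)

end Cfsg.Agent.H80.CritFive
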