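import Cfsg.Agent.H80.CritFive.Module
import Cfsg.Agent.H19.Gaschutz

/-!
# Critical groups with element orders at most five over a normal 2-subgroup
-/

open scoped Classical Pointwise

namespace Cfsg.Agent.H80.CritFive

universe u

variable {G : Type u} [Group G]

/-- An extension of `A5` by an elementary abelian 2-group without elements of order six or ten,
all whose proper quotients over the module lose an element of order four. -/
structure Crit (N : Subgroup G) [N.Normal] (π : G →* A5) : Prop where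
  surj : Function.Surjective π
  ker : π.ker = N
  comm : ∀ x ∈ N, ∀ y ∈ N, x * y = y * x
  sq : ∀ x ∈ N, x * x = 1
  ne : N ≠ ⊥
  le5 : ∀ g : G, orderOf g ≤ 5
  min : ∀ M : Subgroup G, M.Normal → M ≤ N → M ≠ ⊥ → ∀ g : G, g ^ 4 ∈ M → g ^ 2 ∈ M

variable {N : Subgroup G} [N.Normal] {π : G →* A5}

theorem Crit.mem_iff (h : Crit N π) {g : G} : g ∈ N ↔ π g = 1 := by
  rw [← h.ker, MonoidHom.mem_ker]

theorem Crit.pow_three [Finite G] (h : Crit N π) {g : G} (hg : π g ^ 3 = 1) (hg1 : π g ≠ 1) :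
    g ^ 3 = 1 := by
  have h3 : g ^ 3 ∈ N := by rw [h.mem_iff, map_pow]; exact hg
  have h6 : g ^ 6 = 1 := by
    have := h.sq _ h3
    rwa [← pow_add] at this
  have hd := orderOf_dvd_of_pow_eq_one h6
  have hle := h.le5 g
  have hpos : 0 < orderOf g := orderOf_pos g
  have : Fact (Nat.Prime 3) := ⟨Nat.prime_three⟩
  have h3' : orderOf (π g) = 3 := orderOf_eq_prime hg hg1
  have hd3 : 3 ∣ orderOf g := h3' ▸ orderOf_map_dvd π g
  have : orderOf g = 3 := by omega
  rw [← this, pow_orderOf_eq_one]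

/-- The module. -/
theorem Crit.exists_rep [Finite G] (h : Crit N π) :
    ∃ (V : Type u) (_ : AddCommGroup V) (ρ : A5 →* AddMonoid.End V) (ι : V → G),
      Function.Injective ι ∧ (∀ v, ι v ∈ N) ∧ (∀ n ∈ N, ∃ v, ι v = n) ∧
      (∀ v w, ι (v + w) = ι v * ι w) ∧ (∀ g v, ι (ρ (π g) v) = g * ι v * g⁻¹) ∧
      NormZero V ρ ∧ (∃ v : V, v ≠ 0) := by
  letI : CommGroup N :=
    { (inferInstance : Group N) with mul_comm := fun x y => Subtype.ext (h.comm _ x.2 _ y.2) }
  let f : G →* AddMonoid.End (Additive N) :=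
    { toFun := fun g => MonoidHom.toAdditive (MulAut.conjNormal (H := N) g).toMonoidHom
      map_one' := by
        ext v
        exact congrArg Subtype.val (show MulAut.conjNormal (H := N) (1 : G) (Additive.toMul v) =
          Additive.toMul v by rw [map_one]; rfl)
      map_mul' := fun a b => by
        ext v
        exact congrArg Subtype.val (show MulAut.conjNormal (H := N) (a * b) (Additive.toMul v) =
          MulAut.conjNormal (H := N) a (MulAut.conjNormal (H := N) b (Additive.toMul v)) by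
            rw [map_mul]; rfl) }
  have hf : ∀ a b : G, π a = π b → f a = f b := by
    intro a b hab
    have hn : a * b⁻¹ ∈ N := by rw [h.mem_iff, map_mul, map_inv, hab, mul_inv_cancel]
    have h1 : f (a * b⁻¹) = 1 := by
      ext v
      change a * b⁻¹ * ((Additive.toMul v : N) : G) * (a * b⁻¹)⁻¹ = ((Additive.toMul v : N) : G)
      rw [h.comm _ hn _ (Additive.toMul v).2, mul_inv_cancel_right]
    calc f a = f (a * b⁻¹ * b) := by rw [inv_mul_cancel_right]
      _ = f b := by rw [map_mul, h1, one_mul]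
  let ρ : A5 →* AddMonoid.End (Additive N) :=
    { toFun := fun q => f (Function.surjInv h.surj q)
      map_one' := by
        rw [← map_one f]
        exact hf _ _ (by rw [Function.surjInv_eq h.surj, map_one])
      map_mul' := fun p q => by
        rw [← map_mul f]
        exact hf _ _ (by rw [map_mul, Function.surjInv_eq h.surj, Function.surjInv_eq h.surj, Function.surjInv_eq h.surj]) }
  have hρ : ∀ g, ρ (π g) = f g := fun g => hf _ _ (Function.surjInv_eq h.surj _)
  let ι : Additive N → G := fun v => ((Additive.toMul v : N) : G)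
  have hact : ∀ g v, ι (ρ (π g) v) = g * ι v * g⁻¹ := fun g v => by
    rw [hρ]
    exact MulAut.conjNormal_apply (H := N) g (Additive.toMul v)
  refine ⟨Additive N, inferInstance, ρ, ι, fun a b e => ?_, fun v => (Additive.toMul v).2,
    fun n hn => ⟨Additive.ofMul ⟨n, hn⟩, rfl⟩, fun v w => rfl, hact, ⟨fun v => ?_, ?_⟩, ?_⟩
  · exact Additive.toMul.injective (Subtype.ext e)
  · exact Additive.toMul.injective (Subtype.ext (h.sq _ (Additive.toMul v).2))
  · intro q hq hq1 v
    obtain ⟨g, rfl⟩ := h.surj q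
    have h1 := h.pow_three hq hq1
    have h2 : (ι v * g) ^ 3 = 1 := by
      refine h.pow_three ?_ ?_ <;> rw [map_mul, (h.mem_iff).1 (Additive.toMul v).2, one_mul]
      · exact hq
      · exact hq1
    refine Additive.toMul.injective (Subtype.ext ?_)
    change ι (v + ρ (π g) v + ρ (π g * π g) v) = 1
    change ι v * ι (ρ (π g) v) * ι (ρ (π g * π g) v) = 1
    rw [← map_mul π, hact, hact]
    calc ι v * (g * ι v * g⁻¹) * (g * g * ι v * (g * g)⁻¹) = (ι v * g) ^ 3 * (g ^ 3)⁻¹ := by
          simp only [pow_succ, pow_zero, one_mul]; group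
      _ = 1 := by rw [h2, h1, inv_one, one_mul]
  · obtain ⟨n, hn, hn1⟩ : ∃ n ∈ N, n ≠ 1 := by
      by_contra hall
      push Not at hall
      exact h.ne ((Subgroup.eq_bot_iff_forall N).2 hall)
    exact ⟨Additive.ofMul ⟨n, hn⟩, fun e => hn1 (congrArg ι e)⟩

theorem Rel.one {V : Type u} [AddCommGroup V] {ρ : A5 →* AddMonoid.End V} {F : Type} [Field F]
    (e : F × F → V) : Rel F ρ e 1 1 0 0 1 :=
  ⟨by ring, fun x y => by rw [ρ_one, one_mul, zero_mul, add_zero, zero_mul, zero_add, one_mul]⟩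

theorem Rel.mul {V : Type u} [AddCommGroup V] {ρ : A5 →* AddMonoid.End V} {F : Type} [Field F]
    {e : F × F → V} {p q : A5} {a b c d a' b' c' d' : F} (hp : Rel F ρ e p a b c d)
    (hq : Rel F ρ e q a' b' c' d') :
    Rel F ρ e (p * q) (a * a' + b * c') (a * b' + b * d') (c * a' + d * c') (c * b' + d * d') := by
  refine ⟨by linear_combination hp.1 * (a' * d' - b' * c') + hq.1, fun x y => ?_⟩
  rw [ρ_mul, hq.2, hp.2]
  congr 1
  ext <;> simp only <;> ring

/-- Such a group is the affine group over the field with four elements. -/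
theorem Crit.iso [Finite G] (h : Crit N π) :
    ∃ (F : Type) (_ : Field F) (_ : Fintype F), Fintype.card F = 4 ∧
      Nonempty (G ≃* ↥(Subgroup.closure {M : Matrix.SpecialLinearGroup (Fin 3) F |
        (M : Matrix (Fin 3) (Fin 3) F) 2 0 = 0 ∧ (M : Matrix (Fin 3) (Fin 3) F) 2 1 = 0 ∧
          (M : Matrix (Fin 3) (Fin 3) F) 2 2 = 1})) := by
  obtain ⟨V, _, ρ, ι, hι, hιN, hιs, hιadd, hact, hN, hV⟩ := h.exists_rep
  have hι0 : ι 0 = 1 := by simpa using hιadd 0 0
  have hsurj := h.surj
  obtain ⟨F, _, _, ω, e, hF, hω0, hω1, hinj, ra1, ra2, rc1, rc2⟩ := hN.frame hV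
  -- every element of `A5` acts by a matrix
  have hex : ∀ q : A5, ∃ a b c d, Rel F ρ e q a b c d := by
    intro q
    have hq : q ∈ Subgroup.closure ({a1, a2, c1, c2} : Set A5) := gen ▸ Subgroup.mem_top q
    rw [← SetLike.mem_coe, ← Subgroup.coe_toSubmonoid,
      Subgroup.closure_toSubmonoid_of_finite, SetLike.mem_coe] at hq
    induction hq using Submonoid.closure_induction with
    | mem x hx =>
      rcases hx with rfl | rfl | rfl | rfl
      exacts [⟨_, _, _, _, ra1⟩, ⟨_, _, _, _, ra2⟩, ⟨_, _, _, _, rc1⟩, ⟨_, _, _, _, rc2⟩]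
    | one => exact ⟨_, _, _, _, Rel.one e⟩
    | mul x y _ _ hx hy =>
      obtain ⟨_, _, _, _, hx⟩ := hx
      obtain ⟨_, _, _, _, hy⟩ := hy
      exact ⟨_, _, _, _, hx.mul hy⟩
  choose A B C D hR using hex
  have hinv : ∀ q u, ∃ u', ρ q (e u) = e u' := fun q u => ⟨_, (hR q).2 u.1 u.2⟩
  -- the range of the coordinates is everything
  let M : Subgroup G :=
    { carrier := {g | ∃ u, ι (e u) = g}
      one_mem' := ⟨0, by rw [map_zero, hι0]⟩
      mul_mem' := by
        rintro _ _ ⟨u, rfl⟩ ⟨w, rfl⟩; exact ⟨u + w, by rw [map_add, hιadd]⟩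
      inv_mem' := by
        rintro _ ⟨u, rfl⟩
        exact ⟨u, (inv_eq_of_mul_eq_one_right (h.sq _ (hιN _))).symm⟩ }
  have hMn : M.Normal := ⟨fun x hx g => by
    obtain ⟨u, rfl⟩ := hx
    obtain ⟨u', hu'⟩ := hinv (π g) u
    exact ⟨u', by rw [← hu', hact]⟩⟩
  have hMN : M ≤ N := fun x hx => by obtain ⟨u, rfl⟩ := hx; exact hιN _
  have hM1 : M ≠ ⊥ := by
    intro hb
    have : ι (e (1, 0)) ∈ M := ⟨_, rfl⟩
    rw [hb, Subgroup.mem_bot, ← hι0] at this
    have := hinj ((hι this).trans (map_zero e).symm)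
    exact one_ne_zero (α := F) (congrArg Prod.fst this)
  have hMmem : ∀ {v}, ι v ∈ M ↔ ∃ u, e u = v :=
    fun {v} => ⟨fun ⟨u, hu⟩ => ⟨u, hι hu⟩, fun ⟨u, hu⟩ => ⟨u, congrArg ι hu⟩⟩
  have hd : ∀ v, ∃ u, e u = dd ρ a1 v := by
    intro v
    obtain ⟨g, hg⟩ := hsurj a1
    have hg2 : g * g ∈ N := by rw [h.mem_iff, map_mul, hg]; exact ord2.1
    have key : ∀ z : G, π z = a1 → z * z ∈ M := by
      intro z hz
      rw [← pow_two]
      refine h.min M hMn hMN hM1 z ?_
      have hz2 : z * z ∈ N := by rw [h.mem_iff, map_mul, hz]; exact ord2.1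
      rw [show z ^ 4 = z * z * (z * z) by simp only [pow_succ, pow_zero, one_mul, mul_assoc],
        h.sq _ hz2]
      exact one_mem M
    have h1 := key g hg
    have h2 := key (ι v * g) (by rw [map_mul, h.mem_iff.1 (hιN v), one_mul, hg])
    refine hMmem.1 ?_
    have e1 : ι v * g * (ι v * g) = ι (v + ρ a1 v) * (g * g) := by
      rw [hιadd, ← hg, hact]; group
    rw [e1, mul_mem_cancel_right h1] at h2
    rwa [dd, add_comm]
  have honto : ∀ v, ∃ u, e u = v := by
    intro v
    set w := dd ρ c1 (dd ρ a1 v) with hw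
    have hfixW : ρ a1 (v + w) = v + w := by
      refine hN.fix_iff.1 ?_
      rw [dd_add, hw, hN.recover ord2.1 ord2.2.2.2.1 ord3.1
        (hN.fix_iff.1 (hN.dd_fixed ord2.1 v)), hN.char2]
    obtain ⟨u1, hu1⟩ := hd v
    obtain ⟨u2, hu2⟩ : ∃ u, e u = w := by
      obtain ⟨u', hu'⟩ := hinv c1 u1
      exact ⟨u' + u1, by rw [map_add, ← hu', hu1, hw]; rfl⟩
    obtain ⟨u3, hu3⟩ := hd (dd ρ c1 (v + w))
    refine ⟨u3 + u2, ?_⟩
    rw [map_add, hu2, hu3, hN.recover ord2.1 ord2.2.2.2.1 ord3.1 hfixW, add_assoc, hN.char2,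
      add_zero]
  let co : V → F × F := fun v => (honto v).choose
  have hco : ∀ v, e (co v) = v := fun v => (honto v).choose_spec
  have hco_add : ∀ v w, co (v + w) = co v + co w := fun v w =>
    hinj (by rw [map_add, hco, hco, hco])
  have hco_act : ∀ q v, co (ρ q v) = (A q * (co v).1 + B q * (co v).2,
      C q * (co v).1 + D q * (co v).2) := by
    intro q v
    apply hinj
    rw [hco, ← (hR q).2, Prod.mk.eta, hco]
  -- a complement
  have : IsMulCommutative N := ⟨⟨fun x y => Subtype.ext (h.comm _ x.2 _ y.2)⟩⟩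
  obtain ⟨sa, hsa, hsa2⟩ : ∃ g, π g = a1 ∧ g * g = 1 := by
    obtain ⟨g, hg⟩ := hsurj a1
    obtain ⟨v, hv⟩ := hιs (g * g) (by rw [h.mem_iff, map_mul, hg]; exact ord2.1)
    have hfix : ρ a1 v = v := hι (by rw [← hg, hact, hv]; group)
    obtain ⟨z, hz⟩ : ∃ z, dd ρ a1 z = v :=
      ⟨_, hN.recover ord2.1 ord2.2.2.2.1 ord3.1 hfix⟩
    refine ⟨ι z * g, by rw [map_mul, h.mem_iff.1 (hιN z), one_mul, hg], ?_⟩
    have e1 : ι z * g * (ι z * g) = ι (z + ρ a1 z) * (g * g) := by
      rw [hιadd, ← hg, hact]; group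
    rw [e1, ← hv, ← hιadd, show z + ρ a1 z = v by rw [← hz, dd, add_comm], hN.char2, hι0]
  obtain ⟨gy, hgy⟩ := hsurj zz
  have hgy3 : gy ^ 3 = 1 := h.pow_three (by rw [hgy]; exact zz_ord.1) (by rw [hgy]; exact zz_ord.2)
  obtain ⟨sb, hsb⟩ : ∃ sb, sb = gy * sa * gy⁻¹ := ⟨_, rfl⟩
  obtain ⟨sc, hsc⟩ : ∃ sc, sc = gy * sb * gy⁻¹ := ⟨_, rfl⟩
  have hy3 := zz_conj
  have hπb : π sb = a2 := by rw [hsb, map_mul, map_mul, map_inv, hgy, hsa]; exact hy3.1
  have hπc : π sc = a3 := by rw [hsc, map_mul, map_mul, map_inv, hgy, hπb]; exact hy3.2.1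
  have hconj2 : ∀ z : G, z * z = 1 → gy * z * gy⁻¹ * (gy * z * gy⁻¹) = 1 := fun z hz => by
    calc _ = gy * (z * z) * gy⁻¹ := by group
      _ = 1 := by rw [hz]; group
  have hsb2 : sb * sb = 1 := hsb ▸ hconj2 _ hsa2
  have hsc2 : sc * sc = 1 := hsc ▸ hconj2 _ hsb2
  obtain ⟨v, hv⟩ := hιs (sc * (sa * sb)) (by
    rw [h.mem_iff, map_mul, map_mul, hsa, hπb, hπc]; decide)
  have hab : sa * sb = sc * ι v := by rw [hv, ← mul_assoc sc, hsc2, one_mul]
  have hgc : gy * sc * gy⁻¹ = sa := by
    calc gy * sc * gy⁻¹ = gy ^ 3 * sa * (gy ^ 3)⁻¹ := by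
          rw [hsc, hsb]; simp only [pow_succ, pow_zero, one_mul]; group
      _ = sa := by rw [hgy3]; group
  have hbc : sb * sc = sa * ι (ρ zz v) := by
    calc sb * sc = gy * (sa * sb) * gy⁻¹ := by rw [hsc]; nth_rw 1 [hsb]; group
      _ = (gy * sc * gy⁻¹) * (gy * ι v * gy⁻¹) := by rw [hab]; group
      _ = _ := by rw [hgc, ← hact, hgy]
  have hca : sc * sa = sb * ι (ρ ((zz * zz)) v) := by
    calc sc * sa = gy * (sb * sc) * gy⁻¹ := by
          conv_rhs => rw [show gy * (sb * sc) * gy⁻¹ = gy * sb * gy⁻¹ * (gy * sc * gy⁻¹) by group]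
          rw [hgc, ← hsc]
      _ = (gy * sa * gy⁻¹) * (gy * ι (ρ zz v) * gy⁻¹) := by rw [hbc]; group
      _ = _ := by rw [← hsb, ← hact, hgy, ← ρ_mul]
  have hfix : ρ a1 v = v := by
    have hswap : ∀ (z : G) (w : V), ι w * z = z * ι (ρ (π z⁻¹) w) := fun z w => by
      rw [hact]; group
    have hi : ∀ {z : G}, z * z = 1 → z⁻¹ = z := fun hz => inv_eq_of_mul_eq_one_right hz
    have hιinv : ∀ w, (ι w)⁻¹ = ι w := fun w => hi (h.sq _ (hιN w))
    have e1 : (sc * sa)⁻¹ = sc * sa * ι (ρ a1 v) * ι (ρ zz v) := by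
      calc (sc * sa)⁻¹ = sa * sc := by rw [mul_inv_rev, hi hsa2, hi hsc2]
        _ = sa * sb * (sb * sc) := by rw [mul_assoc sa sb, ← mul_assoc sb sb, hsb2, one_mul]
        _ = sc * (ι v * sa) * ι (ρ zz v) := by rw [hab, hbc]; simp only [mul_assoc]
        _ = _ := by rw [hswap, hi hsa2, hsa]; simp only [mul_assoc]
    rw [hca, mul_inv_rev, hιinv, hi hsb2, hswap, hi hsb2, hπb, mul_assoc, mul_assoc,
      ← hιadd, ← hιadd] at e1
    have e2 := hι (mul_left_cancel e1)
    set z2 := ρ ((zz * zz)) v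
    have e3 : dd ρ a2 z2 + (ρ a1 v + ρ zz v) = 0 := by
      rw [dd, e2, show z2 + (ρ a1 v + ρ zz v) + z2 + (ρ a1 v + ρ zz v) =
        (z2 + z2) + ((ρ a1 v + ρ zz v) + (ρ a1 v + ρ zz v)) by abel, hN.char2, hN.char2, add_zero]
    -- apply `1 + a1`
    have e4 : dd ρ a1 (ρ a1 v + ρ zz v) = 0 := by
      have := congrArg (dd ρ a1) e3
      rwa [dd_add, hN.dd_dd prods.1 hN.sumA, zero_add, dd_zero] at this
    have hy : ∀ w, ρ a1 w = w → ρ a1 (ρ zz w) = ρ zz w := by
      intro w hw
      have h3 : ρ a3 w = w := by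
        have h2 : ρ a2 w = w := by
          rw [← hN.recover ord2.1 ord2.2.2.2.1 ord3.1 hw]
          exact hN.fix_iff.1 (hN.dd_dd prods.2.1 (fun v => by rw [← hN.sumA v]; abel) _)
        rw [← prods.1, ρ_mul, h2, hw]
      rw [← ρ_mul, zz_conj.2.2, ρ_mul, h3]
    have h13 : ρ a1 (v + ρ zz v) = v + ρ zz v := by
      have := hN.fix_iff.1 e4
      rw [map_add, ← ρ_mul ρ a1 a1, ord2.1, ρ_one] at this
      calc ρ a1 (v + ρ zz v) = ρ a1 v + ρ a1 (ρ zz v) := map_add _ _ _
        _ = ρ a1 v + (v + ρ a1 (ρ zz v)) + v := by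
          rw [show ρ a1 v + (v + ρ a1 (ρ zz v)) + v = ρ a1 v + ρ a1 (ρ zz v) + (v + v) by abel,
            hN.char2, add_zero]
        _ = ρ a1 v + (ρ a1 v + ρ zz v) + v := by rw [this]
        _ = _ := by
          rw [show ρ a1 v + (ρ a1 v + ρ zz v) + v = v + ρ zz v + (ρ a1 v + ρ a1 v) by abel,
            hN.char2, add_zero]
    -- `v = y (v + y v)`
    have hv' : v = ρ zz (v + ρ zz v) := by
      refine hN.eq_of_add ?_
      rw [map_add, ← ρ_mul, ← add_assoc]
      exact hN.three zz zz_ord.1 zz_ord.2 v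
    have := hy _ h13
    rwa [← hv'] at this
  have hcomm : sa * sb = sb * sa := by
    have h1 : ρ a3 v = v := by
      have h2 : ρ a2 v = v := by
        rw [← hN.recover ord2.1 ord2.2.2.2.1 ord3.1 hfix]
        exact hN.fix_iff.1 (hN.dd_dd prods.2.1 (fun v => by rw [← hN.sumA v]; abel) _)
      rw [← prods.1, ρ_mul, h2, hfix]
    have hc : sc * ι v = ι v * sc := by
      have h2 : sc * ι v * sc⁻¹ = ι v := by rw [← hact, hπc, h1]
      calc sc * ι v = sc * ι v * sc⁻¹ * sc := by group
        _ = ι v * sc := by rw [h2]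
    have h2 : sa * sb * (sa * sb) = 1 := by
      rw [hab, mul_assoc, ← mul_assoc (ι v), ← hc, mul_assoc, h.sq _ (hιN v), mul_one, hsc2]
    calc sa * sb = (sa * sb)⁻¹ := (inv_eq_of_mul_eq_one_right h2).symm
      _ = sb * sa := by
        rw [mul_inv_rev, inv_eq_of_mul_eq_one_right hsa2, inv_eq_of_mul_eq_one_right hsb2]
  let Q : Subgroup G :=
    { carrier := {g | g = 1 ∨ g = sa ∨ g = sb ∨ g = sa * sb}
      one_mem' := Or.inl rfl
      mul_mem' := by
        have k1 : sa * (sa * sb) = sb := by rw [← mul_assoc, hsa2, one_mul]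
        have k2 : sa * sb * sa = sb := by rw [hcomm, mul_assoc, hsa2, mul_one]
        have k3 : sb * (sa * sb) = sa := by rw [hcomm, ← mul_assoc, hsb2, one_mul]
        have k4 : sa * sb * sb = sa := by rw [mul_assoc, hsb2, mul_one]
        have k5 : sa * sb * (sa * sb) = 1 := by rw [mul_assoc, k3, hsa2]
        rintro g h (rfl | rfl | rfl | rfl) (rfl | rfl | rfl | rfl) <;>
          simp only [Set.mem_setOf_eq, one_mul, mul_one, hsa2, hsb2, k1, k2, k3, k4, k5,
            ← hcomm, true_or, or_true]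
      inv_mem' := by
        have i1 : sa⁻¹ = sa := inv_eq_of_mul_eq_one_right hsa2
        have i2 : sb⁻¹ = sb := inv_eq_of_mul_eq_one_right hsb2
        rintro g (rfl | rfl | rfl | rfl) <;>
          simp only [Set.mem_setOf_eq, inv_one, mul_inv_rev, i1, i2, ← hcomm, true_or, or_true] }
  have hQmem : sa ∈ Q ∧ sb ∈ Q := ⟨Or.inr (Or.inl rfl), Or.inr (Or.inr (Or.inl rfl))⟩
  have hQN : Q ⊓ N = ⊥ := by
    rw [Subgroup.eq_bot_iff_forall]
    rintro g ⟨hg, hgN⟩
    have h1 := h.mem_iff.1 hgN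
    rcases hg with rfl | rfl | rfl | rfl
    · rfl
    · exact absurd (hsa.symm.trans h1) ne_one.1
    · exact absurd (hπb.symm.trans h1) ne_one.2.1
    · rw [map_mul, hsa, hπb, prods.1] at h1; exact absurd h1 ne_one.2.2.1
  have hcop : (Nat.card N).Coprime (N ⊔ Q).index := by
    have hUc : Nat.card ↥(N ⊔ Q) = Nat.card N * 4 := by
      have hQc : Nat.card Q = 4 := by
        have hset : (Q : Set G) = ({1, sa, sb, sa * sb} : Finset G) := by
          ext g; simp [Q]
        rw [← SetLike.coe_sort_coe, hset, Nat.card_coe_set_eq, Set.ncard_coe_finset]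
        have d1 : ∀ x y : G, π x ≠ π y → x ≠ y := fun x y hne e => hne (congrArg π e)
        rw [Finset.card_insert_of_notMem, Finset.card_insert_of_notMem,
          Finset.card_insert_of_notMem, Finset.card_singleton]
        · simp only [Finset.mem_singleton]; refine d1 _ _ ?_
          rw [map_mul, hsa, hπb]; decide
        · simp only [Finset.mem_insert, Finset.mem_singleton, not_or]
          refine ⟨d1 _ _ ?_, d1 _ _ ?_⟩ <;> simp only [map_mul, hsa, hπb] <;> decide
        · simp only [Finset.mem_insert, Finset.mem_singleton, not_or]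
          refine ⟨d1 _ _ ?_, d1 _ _ ?_, d1 _ _ ?_⟩ <;> simp only [map_mul, map_one, hsa, hπb] <;>
            decide
      rw [← hQc]
      have hdis : Disjoint Q N := disjoint_iff.2 hQN
      have e2 : (↑(N ⊔ Q) : Set G) = (N : Set G) * (Q : Set G) := Subgroup.normal_mul N Q
      calc Nat.card ↥(N ⊔ Q) = Nat.card ↑((N : Set G) * (Q : Set G)) :=
            Nat.card_congr (Equiv.setCongr e2)
        _ = _ := by
          rw [← Nat.card_prod]
          refine (Nat.card_eq_of_bijective (fun z : N × Q =>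
            (⟨z.1.1 * z.2.1, Set.mul_mem_mul z.1.2 z.2.2⟩ : ↑((N : Set G) * (Q : Set G)))) ⟨?_, ?_⟩).symm
          · intro z w hzw
            exact Subgroup.mul_injective_of_disjoint hdis.symm (congrArg Subtype.val hzw)
          · rintro ⟨_, a, ha, b, hb, rfl⟩
            exact ⟨(⟨a, ha⟩, ⟨b, hb⟩), rfl⟩
    have hcard : Nat.card G = Nat.card N * 60 := by
      have h1 : N.index = 60 := by
        rw [← h.ker, Subgroup.index_ker, MonoidHom.range_eq_top.2 hsurj, Subgroup.card_top,
          Nat.card_eq_fintype_card]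
        rfl
      rw [← h1, Subgroup.card_mul_index]
    have hidx : (N ⊔ Q).index = 15 := by
      have := (N ⊔ Q).card_mul_index
      rw [hUc, hcard, mul_assoc] at this
      have := mul_left_cancel₀ Nat.card_pos.ne' this
      omega
    have : Fact (Nat.Prime 2) := ⟨Nat.prime_two⟩
    obtain ⟨k, hk⟩ := (IsPGroup.iff_card (p := 2) (G := N)).1 fun x => ⟨1, Subtype.ext (by
      rw [pow_one, pow_two]; exact h.sq _ x.2)⟩
    rw [hidx, hk]
    exact Nat.Coprime.pow_left k (by norm_num)
  obtain ⟨H, hH⟩ := Cfsg.Agent.H19.gaschutz_exists (K := N) (U := N ⊔ Q) le_sup_left hcop hQN rfl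
  have hb : ∀ q : A5, ∃! g, g ∈ H ∧ π g = q := by
    intro q
    obtain ⟨g, hg⟩ := hsurj q
    obtain ⟨⟨n, k⟩, hnk⟩ := hH.2 g
    refine ⟨k, ⟨k.2, ?_⟩, fun g' hg' => ?_⟩
    · rw [← hg, ← hnk]
      simp only [map_mul, h.mem_iff.1 n.2, one_mul]
    · have hdis := hH.disjoint
      have : g' * (k : G)⁻¹ ∈ N := by
        rw [h.mem_iff, map_mul, map_inv, hg'.2, ← hg, ← hnk]
        simp only [map_mul, h.mem_iff.1 n.2, one_mul, mul_inv_cancel]
      exact mul_inv_eq_one.1 (Subgroup.disjoint_def.1 hdis this (mul_mem hg'.1 (inv_mem k.2)))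
  choose s hs hs_uniq using hb
  have hs_mul : ∀ p q, s (p * q) = s p * s q := fun p q =>
    (hs_uniq _ _ ⟨mul_mem (hs p).1 (hs q).1, by rw [map_mul, (hs p).2, (hs q).2]⟩).symm
  -- translation part
  have htr : ∀ g, ∃ v, ι v = g * (s (π g))⁻¹ := fun g =>
    hιs _ (by rw [h.mem_iff, map_mul, map_inv, (hs _).2, mul_inv_cancel])
  choose T hT using htr
  have hT_mul : ∀ g k, T (g * k) = T g + ρ (π g) (T k) := by
    intro g k
    apply hι
    have hn : ι (ρ (π g) (T k)) = s (π g) * ι (T k) * (s (π g))⁻¹ := by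
      rw [← hact, (hs _).2]
    rw [hιadd, hn, hT, hT, hT, map_mul, hs_mul]
    group
  let mat : G → Matrix (Fin 3) (Fin 3) F := fun g =>
    !![A (π g), B (π g), (co (T g)).1; C (π g), D (π g), (co (T g)).2; 0, 0, 1]
  have hdet : ∀ g, (mat g).det = 1 := by
    intro g
    rw [Matrix.det_fin_three]
    simp [mat]
    linear_combination (hR (π g)).1
  have huniq : ∀ {q a b c d}, Rel F ρ e q a b c d → A q = a ∧ B q = b ∧ C q = c ∧ D q = d := by
    intro q a b c d hq
    have h1 := hinj ((hq.2 1 0).symm.trans ((hR q).2 1 0))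
    have h2 := hinj ((hq.2 0 1).symm.trans ((hR q).2 0 1))
    simp only [mul_one, mul_zero, add_zero, zero_add, Prod.ext_iff] at h1 h2
    exact ⟨h1.1.symm, h2.1.symm, h1.2.symm, h2.2.symm⟩
  have hmul : ∀ g k, mat (g * k) = mat g * mat k := by
    intro g k
    obtain ⟨hA, hB, hC, hD⟩ := huniq ((hR (π g)).mul (hR (π k)))
    simp only [mat, map_mul, hA, hB, hC, hD, hT_mul, hco_add, hco_act]
    ext i j
    fin_cases i <;> fin_cases j <;>
      simp [Matrix.mul_apply, Fin.sum_univ_three] <;> ring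
  let Φ : G →* Matrix.SpecialLinearGroup (Fin 3) F :=
    MonoidHom.mk' (fun g => ⟨mat g, hdet g⟩) fun g k => Subtype.ext (hmul g k)
  have hΦ : Function.Injective Φ := by
    rw [injective_iff_map_eq_one]
    intro g hg
    have hm : mat g = 1 := congrArg Subtype.val hg
    have e00 := congrFun (congrFun hm 0) 0
    have e01 := congrFun (congrFun hm 0) 1
    have e10 := congrFun (congrFun hm 1) 0
    have e11 := congrFun (congrFun hm 1) 1
    have e02 := congrFun (congrFun hm 0) 2
    have e12 := congrFun (congrFun hm 1) 2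
    simp [mat] at e00 e01 e10 e11 e02 e12
    have hqv : ∀ w, ρ (π g) w = w := by
      intro w
      rw [← hco w, ← Prod.mk.eta (p := co w), (hR (π g)).2, e00, e01, e10, e11]
      simp
    have hq1 : π g = 1 := by
      by_contra hne
      let K : Subgroup A5 :=
        { carrier := {q | ∀ w, ρ q w = w}
          one_mem' := ρ_one ρ
          mul_mem' := fun {a b} ha hb w => by rw [ρ_mul, hb, ha]
          inv_mem' := fun {a} ha w => by
            conv_lhs => rw [← ha w]
            rw [← ρ_mul, inv_mul_cancel, ρ_one] }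
      have hK : K.Normal := ⟨fun q hq z w => by rw [ρ_mul, ρ_mul, hq, ← ρ_mul, mul_inv_cancel, ρ_one]⟩
      have : IsSimpleGroup A5 := alternatingGroup.isSimpleGroup (by simp)
      rcases hK.eq_bot_or_eq_top with hb | ht
      · exact hne (Subgroup.mem_bot.1 (hb ▸ (hqv : π g ∈ K)))
      · obtain ⟨v, hv⟩ := hV
        exact hv (hN.inter ((ht ▸ Subgroup.mem_top a1 : a1 ∈ K) v)
          ((ht ▸ Subgroup.mem_top c1 : c1 ∈ K) v))
    have hT0 : T g = 0 := by
      rw [← hco (T g), show co (T g) = 0 from Prod.ext e02 e12, map_zero]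
    have := hT g
    rw [hT0, hι0, hq1, show s 1 = 1 from (hs_uniq _ _ ⟨one_mem _, map_one π⟩).symm, inv_one,
      mul_one] at this
    exact this.symm
  have hrange : Φ.range = Subgroup.closure {M : Matrix.SpecialLinearGroup (Fin 3) F |
      (M : Matrix (Fin 3) (Fin 3) F) 2 0 = 0 ∧ (M : Matrix (Fin 3) (Fin 3) F) 2 1 = 0 ∧
        (M : Matrix (Fin 3) (Fin 3) F) 2 2 = 1} := by
    refine le_antisymm ?_ ((Subgroup.closure_le _).2 ?_)
    · rintro _ ⟨g, rfl⟩
      refine Subgroup.subset_closure ⟨?_, ?_, ?_⟩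
      · change mat g 2 0 = 0; simp [mat]
      · change mat g 2 1 = 0; simp [mat]
      · change mat g 2 2 = 1; simp [mat]
    · intro X hX
      have hall : ∀ x : F, x = 0 ∨ x = 1 ∨ x = ω ∨ x = ω + 1 := by
        intro x
        by_contra hx
        push Not at hx
        obtain ⟨x0, x1, x2, x3⟩ := hx
        have two : ∀ x : F, x + x = 0 := fun x => by
          have h2 := congrArg co (hN.char2 (e (x, 0)))
          rw [hco_add, show co (e (x, 0)) = (x, 0) from hinj (hco _),
            show co 0 = (0 : F × F) from hinj ((hco 0).trans (map_zero e).symm)] at h2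
          exact congrArg Prod.fst h2
        have w0 : ω + 1 ≠ 0 := fun e => hω1 (by
          calc ω = ω + 1 + 1 := by rw [add_assoc, two, add_zero]
            _ = 1 := by rw [e, zero_add])
        have w1 : ω + 1 ≠ 1 := fun e => hω0 (by simpa using e)
        have w2 : ω + 1 ≠ ω := fun e => one_ne_zero (α := F) (by simpa using e)
        have h5 : ({0, 1, ω, ω + 1, x} : Finset F).card = 5 := by
          rw [Finset.card_insert_of_notMem, Finset.card_insert_of_notMem,
            Finset.card_insert_of_notMem, Finset.card_insert_of_notMem, Finset.card_singleton] <;>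
            simp [Ne.symm hω0, Ne.symm hω1, Ne.symm w0, Ne.symm w1, Ne.symm w2,
              x0.symm, x1.symm, x2.symm, x3.symm, zero_ne_one]
        have := Finset.card_le_univ ({0, 1, ω, ω + 1, x} : Finset F)
        omega
      have hU : ∀ x : F, ∃ q, Rel F ρ e q 1 x 0 1 := by
        intro x
        rcases hall x with rfl | rfl | rfl | rfl
        · exact ⟨1, Rel.one e⟩
        · exact ⟨a1, ra1⟩
        · exact ⟨a2, ra2⟩
        · exact ⟨a1 * a2, by simpa [add_comm] using ra1.mul ra2⟩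
      have hL : ∀ x : F, ∃ q, Rel F ρ e q 1 0 x 1 := by
        intro x
        rcases hall x with e' | e' | e' | e' <;> rw [e']
        · exact ⟨1, Rel.one e⟩
        · exact ⟨c1, rc1⟩
        · refine ⟨c1 * c2, ?_⟩
          have := rc1.mul rc2
          have two : (1 : F) + 1 = 0 := by
            have h2 := congrArg co (hN.char2 (e (1, 0)))
            rw [hco_add, show co (e (1, 0)) = (1, 0) from hinj (hco _),
              show co 0 = (0 : F × F) from hinj ((hco 0).trans (map_zero e).symm)] at h2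
            exact congrArg Prod.fst h2
          have h2 : (1 : F) + (ω + 1) = ω := by rw [add_left_comm, two, add_zero]
          simpa [h2] using this
        · exact ⟨c2, rc2⟩
      have hreal : ∀ a b c d : F, a * d - b * c = 1 → ∃ q, Rel F ρ e q a b c d := by
        have hc : ∀ a b c d : F, c ≠ 0 → a * d - b * c = 1 → ∃ q, Rel F ρ e q a b c d := by
          intro a b c d hc hdet
          obtain ⟨q1, h1⟩ := hU ((a - 1) / c)
          obtain ⟨q2, h2⟩ := hL c
          obtain ⟨q3, h3⟩ := hU ((d - 1) / c)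
          refine ⟨q1 * q2 * q3, ?_⟩
          convert (h1.mul h2).mul h3 using 1 <;> field_simp <;>
            linear_combination (norm := ring_nf) (0 : F)
          all_goals linear_combination -hdet
        intro a b c d hdet
        by_cases hc0 : c = 0
        · have hd : d ≠ 0 := by
            rintro rfl
            rw [hc0] at hdet; simp at hdet
          obtain ⟨q1, h1⟩ := hc (a + b) b d d hd (by rw [hc0] at hdet; linear_combination hdet)
          obtain ⟨q2, h2⟩ := hL (-1)
          refine ⟨q1 * q2, ?_⟩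
          convert h1.mul h2 using 1 <;> subst hc0 <;> ring
        · exact hc a b c d hc0 hdet
      have hdX := X.2
      rw [Matrix.det_fin_three, hX.1, hX.2.1, hX.2.2] at hdX
      obtain ⟨q, hq⟩ := hreal (X.1 0 0) (X.1 0 1) (X.1 1 0) (X.1 1 1)
        (by linear_combination hdX)
      refine ⟨ι (e (X.1 0 2, X.1 1 2)) * s q, Subtype.ext ?_⟩
      set g := ι (e (X.1 0 2, X.1 1 2)) * s q with hg
      have hπg : π g = q := by rw [hg, map_mul, h.mem_iff.1 (hιN _), one_mul, (hs q).2]
      have hTg : T g = e (X.1 0 2, X.1 1 2) := hι (by rw [hT, hπg, hg, mul_inv_cancel_right])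
      obtain ⟨hA, hB, hC, hD⟩ := huniq hq
      have hcoT : co (T g) = (X.1 0 2, X.1 1 2) := hinj (by rw [hco, hTg])
      change mat g = X.1
      simp only [mat, hπg, hA, hB, hC, hD, hcoT]
      ext i j
      fin_cases i <;> fin_cases j <;> simp [hX.1, hX.2.1, hX.2.2]
  exact ⟨F, inferInstance, inferInstance, hF,
    ⟨(MonoidHom.ofInjective hΦ).trans (MulEquiv.subgroupCongr hrange)⟩⟩

end Cfsg.Agent.H80.CritFive
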