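import Cfsg.Agent.H80.CritFive.Elements

/-!
# Modules of A5 in characteristic two on which elements of order three act without fixed points
-/

open scoped Classical

namespace Cfsg.Agent.H80.CritFive

universe u

/-- An action in characteristic two in which elements of order three have norm zero. -/
structure NormZero (V : Type u) [AddCommGroup V] (ρ : A5 →* AddMonoid.End V) : Prop where
  char2 : ∀ v : V, v + v = 0
  three : ∀ q : A5, q ^ 3 = 1 → q ≠ 1 → ∀ v : V, v + ρ q v + ρ (q * q) v = 0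

variable {V : Type u} [AddCommGroup V] {ρ : A5 →* AddMonoid.End V}

theorem ρ_mul (ρ : A5 →* AddMonoid.End V) (p q : A5) (v : V) : ρ (p * q) v = ρ p (ρ q v) := by
  rw [map_mul]; rfl

theorem ρ_one (ρ : A5 →* AddMonoid.End V) (v : V) : ρ 1 v = v := by
  rw [map_one]; rfl

/-- The map `v ↦ q v + v`. -/
def dd (ρ : A5 →* AddMonoid.End V) (q : A5) (v : V) : V := ρ q v + v

theorem NormZero.eq_of_add (h : NormZero V ρ) {a b : V} (e : a + b = 0) : a = b := by
  rw [← add_right_cancel (b := b) (e.trans (h.char2 b).symm)]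

theorem dd_add (ρ : A5 →* AddMonoid.End V) (q : A5) (v w : V) :
    dd ρ q (v + w) = dd ρ q v + dd ρ q w := by
  simp only [dd, map_add]; abel

theorem dd_zero (ρ : A5 →* AddMonoid.End V) (q : A5) : dd ρ q 0 = 0 := by
  simp [dd]

theorem NormZero.dd_fixed (h : NormZero V ρ) {q : A5} (hq : q * q = 1) (v : V) :
    dd ρ q (dd ρ q v) = 0 := by
  simp only [dd, map_add, ← ρ_mul, hq, ρ_one]
  rw [show v + ρ q v + (ρ q v + v) = (v + v) + (ρ q v + ρ q v) by abel, h.char2, h.char2, add_zero]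

theorem NormZero.fix_iff (h : NormZero V ρ) {q : A5} {v : V} : dd ρ q v = 0 ↔ ρ q v = v :=
  ⟨h.eq_of_add, fun e => by rw [dd, e, h.char2]⟩

/-- A four-group with cyclically permuted products has zero norm. -/
theorem NormZero.four_sum (h : NormZero V ρ) {p q r z : A5} (hz : z ^ 3 = 1) (hz1 : z ≠ 1)
    (hp : (p * z) ^ 3 = 1 ∧ p * z ≠ 1 ∧ p * z * (p * z) = q * (z * z))
    (hq : (q * z) ^ 3 = 1 ∧ q * z ≠ 1 ∧ q * z * (q * z) = r * (z * z))
    (hr : (r * z) ^ 3 = 1 ∧ r * z ≠ 1 ∧ r * z * (r * z) = p * (z * z)) (v : V) :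
    v + ρ p v + ρ q v + ρ r v = 0 := by
  have key : ∀ u : V, (ρ z u + ρ (z * z) u) + ρ p (ρ z u + ρ (z * z) u)
      + ρ q (ρ z u + ρ (z * z) u) + ρ r (ρ z u + ρ (z * z) u) = 0 := by
    intro u
    have e1 := h.three _ hp.1 hp.2.1 u
    have e2 := h.three _ hq.1 hq.2.1 u
    have e3 := h.three _ hr.1 hr.2.1 u
    have e0 := h.three _ hz hz1 u
    rw [hp.2.2, ρ_mul ρ p z, ρ_mul ρ q (z * z)] at e1
    rw [hq.2.2, ρ_mul ρ q z, ρ_mul ρ r (z * z)] at e2
    rw [hr.2.2, ρ_mul ρ r z, ρ_mul ρ p (z * z)] at e3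
    simp only [map_add]
    have e : (u + ρ z u + ρ (z * z) u) + (u + ρ p (ρ z u) + ρ q (ρ (z * z) u))
        + (u + ρ q (ρ z u) + ρ r (ρ (z * z) u)) + (u + ρ r (ρ z u) + ρ p (ρ (z * z) u)) = 0 := by
      rw [e0, e1, e2, e3]; simp
    rw [← e]
    have := h.char2 u
    calc _ = (u + u) + (u + u) + ((ρ z u + ρ (z * z) u) + (ρ p (ρ z u) + ρ p (ρ (z * z) u))
        + (ρ q (ρ z u) + ρ q (ρ (z * z) u)) + (ρ r (ρ z u) + ρ r (ρ (z * z) u))) := by
          rw [this]; abel
      _ = _ := by abel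
  have hv : ρ z v + ρ (z * z) v = v := by
    refine h.eq_of_add ?_
    have := h.three z hz hz1 v
    rw [← this]; abel
  have := key v
  rwa [hv] at this

theorem NormZero.sumA (h : NormZero V ρ) (v : V) : v + ρ a1 v + ρ a2 v + ρ a3 v = 0 :=
  h.four_sum yy_ord.1 yy_ord.2 squaresA.1 squaresA.2.1 squaresA.2.2 v

theorem NormZero.sumC (h : NormZero V ρ) (v : V) : v + ρ c1 v + ρ c2 v + ρ c3 v = 0 :=
  h.four_sum yy_ord.1 yy_ord.2 squaresC.1 squaresC.2.1 squaresC.2.2 v

theorem NormZero.dd_dd (h : NormZero V ρ) {p q r : A5} (hpq : p * q = r)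
    (hs : ∀ v, v + ρ p v + ρ q v + ρ r v = 0) (v : V) : dd ρ p (dd ρ q v) = 0 := by
  simp only [dd, map_add, ← ρ_mul, hpq]
  rw [← hs v]; abel

theorem NormZero.dd_three (h : NormZero V ρ) {p q r : A5} (hpq : p * q = r)
    (hs : ∀ v, v + ρ p v + ρ q v + ρ r v = 0) (v : V) : dd ρ r v = dd ρ p v + dd ρ q v := by
  refine h.eq_of_add ?_
  simp only [dd]
  rw [show ρ r v + v + (ρ p v + v + (ρ q v + v)) =
      (v + ρ p v + ρ q v + ρ r v) + (v + v) by abel, hs, h.char2, add_zero]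

/-- An element fixed by `p` is recovered from `q` when `p q` has order three. -/
theorem NormZero.recover (h : NormZero V ρ) {p q : A5} (hp : p * p = 1) (hq : q * q = 1)
    (ho : (p * q) ^ 3 = 1 ∧ p * q ≠ 1) {w : V} (hw : ρ p w = w) :
    dd ρ p (dd ρ q w) = w := by
  have hinv : p * q * (p * q) = q * p := by
    calc p * q * (p * q) = (p * q) ^ 3 * (q⁻¹ * p⁻¹) := by rw [pow_succ, pow_two]; group
      _ = q * p := by
        rw [ho.1, one_mul, inv_eq_of_mul_eq_one_right hp, inv_eq_of_mul_eq_one_right hq]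
  have e := h.three _ ho.1 ho.2 w
  rw [hinv, ρ_mul, ρ_mul, hw] at e
  refine h.eq_of_add ?_
  simp only [dd, map_add, hw]
  rw [show ρ p (ρ q w) + w + (ρ q w + w) + w = (w + ρ p (ρ q w) + ρ q w) + (w + w) by abel, e,
    h.char2, add_zero]

theorem NormZero.inter (h : NormZero V ρ) {v : V} (h1 : ρ a1 v = v) (h2 : ρ c1 v = v) : v = 0 := by
  have := h.recover ord2.1 ord2.2.2.2.1 ord3.1 h1
  rw [show dd ρ c1 v = 0 from h.fix_iff.2 h2, dd_zero] at this
  exact this.symm

/-- Matrices of the form `((a, b), (c, d))` acting in coordinates. -/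
def Rel (F : Type) [Field F] (ρ : A5 →* AddMonoid.End V) (e : F × F → V) (q : A5)
    (a b c d : F) : Prop :=
  a * d - b * c = 1 ∧ ∀ x y : F, ρ q (e (x, y)) = e (a * x + b * y, c * x + d * y)

theorem NormZero.frame (h : NormZero V ρ) (hV : ∃ v : V, v ≠ 0) :
    ∃ (F : Type) (_ : Field F) (_ : Fintype F) (ω : F) (e : F × F →+ V),
      Fintype.card F = 4 ∧ ω ≠ 0 ∧ ω ≠ 1 ∧ Function.Injective e ∧
      Rel F ρ e a1 1 1 0 1 ∧ Rel F ρ e a2 1 ω 0 1 ∧ Rel F ρ e c1 1 0 1 1 ∧
      Rel F ρ e c2 1 0 (ω + 1) 1 := by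
  obtain ⟨oa1, oa2, oa3, oc1, oc2, oc3⟩ := ord2
  obtain ⟨pa, pa', pc, pc'⟩ := prods
  obtain ⟨r1, r2, r3, s1, s2, s3⟩ := ord3
  have sA' : ∀ v, v + ρ a2 v + ρ a1 v + ρ a3 v = 0 := fun v => by rw [← h.sumA v]; abel
  have sC' : ∀ v, v + ρ c2 v + ρ c1 v + ρ c3 v = 0 := fun v => by rw [← h.sumC v]; abel
  have fixA1 : ∀ v, ρ a1 (dd ρ a1 v) = dd ρ a1 v := fun v => h.fix_iff.1 (h.dd_fixed oa1 v)
  have fixC1 : ∀ v, ρ c1 (dd ρ c1 v) = dd ρ c1 v := fun v => h.fix_iff.1 (h.dd_fixed oc1 v)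
  have inW : ∀ {w}, ρ a1 w = w → ρ a2 w = w ∧ ρ a3 w = w := by
    intro w hw
    have e : w = dd ρ a1 (dd ρ c1 w) := (h.recover oa1 oc1 r1 hw).symm
    have h2 : ρ a2 w = w := by
      rw [e]; exact h.fix_iff.1 (h.dd_dd pa' sA' _)
    exact ⟨h2, by rw [← pa, ρ_mul, h2, hw]⟩
  have inW' : ∀ {w}, ρ c1 w = w → ρ c2 w = w ∧ ρ c3 w = w := by
    intro w hw
    have e : w = dd ρ c1 (dd ρ a1 w) := (h.recover oc1 oa1 s1 hw).symm
    have h2 : ρ c2 w = w := by
      rw [e]; exact h.fix_iff.1 (h.dd_dd pc' sC' _)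
    exact ⟨h2, by rw [← pc, ρ_mul, h2, hw]⟩
  have fromA2 : ∀ v, ρ a1 (dd ρ a2 v) = dd ρ a2 v := fun v =>
    h.fix_iff.1 (h.dd_dd pa h.sumA v)
  have fromC2 : ∀ v, ρ c1 (dd ρ c2 v) = dd ρ c2 v := fun v =>
    h.fix_iff.1 (h.dd_dd pc h.sumC v)
  set B : V → V := fun w => dd ρ a2 (dd ρ c1 w) with hB
  set B' : V → V := fun w => dd ρ a1 (dd ρ c2 w) with hB'
  have BW : ∀ w, ρ a1 (B w) = B w := fun w => fromA2 _
  have hBB' : ∀ {w}, ρ a1 w = w → B (B' w) = w := by
    intro w hw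
    have h1 : dd ρ c1 (dd ρ a1 (dd ρ c2 w)) = dd ρ c2 w := h.recover oc1 oa1 s1 (fromC2 w)
    simp only [hB, hB', h1]
    exact h.recover oa2 oc2 r2 (inW hw).1
  have hsum : ∀ {w}, ρ a1 w = w → B' w = B w + w := by
    intro w hw
    have e := h.recover oa3 oc3 r3 (inW hw).2
    rw [h.dd_three pc h.sumC w, dd_add, h.dd_three pa h.sumA, h.dd_three pa h.sumA,
      h.recover oa1 oc1 r1 hw, h.recover oa2 oc2 r2 (inW hw).1] at e
    refine h.eq_of_add ?_
    simp only [hB, hB']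
    have e2 : dd ρ a2 (dd ρ c1 w) + dd ρ a1 (dd ρ c2 w) + w = 0 := by
      calc _ = (w + dd ρ a2 (dd ρ c1 w) + (dd ρ a1 (dd ρ c2 w) + w)) + w := by
            rw [show (w + dd ρ a2 (dd ρ c1 w) + (dd ρ a1 (dd ρ c2 w) + w)) + w =
              dd ρ a2 (dd ρ c1 w) + dd ρ a1 (dd ρ c2 w) + w + (w + w) by abel, h.char2, add_zero]
        _ = 0 := by rw [e, h.char2]
    rw [← e2]; abel
  have Badd : ∀ v w, B (v + w) = B v + B w := fun v w => by simp only [hB, dd_add]
  have hBB : ∀ {w}, ρ a1 w = w → B (B w) = B w + w := by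
    intro w hw
    refine h.eq_of_add ?_
    have e := hBB' hw
    rw [hsum hw, Badd] at e
    rw [← add_assoc, e, h.char2]
  -- a starting vector
  obtain ⟨w₀, hw₀, hw₀1⟩ : ∃ w : V, w ≠ 0 ∧ ρ a1 w = w := by
    by_contra hno
    push Not at hno
    obtain ⟨v, hv⟩ := hV
    have h1 : dd ρ a1 v = 0 := by
      by_contra hne
      exact hno _ hne (fixA1 v)
    exact hno v hv (h.fix_iff.1 h1)
  -- the field
  have : Fact (Nat.Prime 2) := ⟨Nat.prime_two⟩
  let F := GaloisField 2 2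
  have : Fintype F := Fintype.ofFinite F
  have hF : Fintype.card F = 4 := by
    rw [← Nat.card_eq_fintype_card, GaloisField.card 2 2 (by norm_num)]; norm_num
  obtain ⟨ω, hω⟩ : ∃ ω : F, ω ∉ ({0, 1} : Finset F) := by
    by_contra hno
    push Not at hno
    have := Finset.card_le_card (fun x (_ : x ∈ (Finset.univ : Finset F)) => hno x)
    rw [Finset.card_univ, hF] at this
    have := Finset.card_le_two (a := (0 : F)) (b := 1)
    omega
  simp only [Finset.mem_insert, Finset.mem_singleton, not_or] at hω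
  have two : ∀ x : F, x + x = 0 := fun x => CharTwo.add_self_eq_zero x
  have hω1 : ω + 1 ≠ 0 ∧ ω + 1 ≠ 1 ∧ ω + 1 ≠ ω := by
    refine ⟨fun e => hω.2 ?_, fun e => hω.1 ?_, fun e => one_ne_zero (α := F) ?_⟩
    · calc ω = ω + 1 + 1 := by rw [add_assoc, two, add_zero]
        _ = 1 := by rw [e, zero_add]
    · simpa using e
    · simpa using e
  have hall : ∀ x : F, x = 0 ∨ x = 1 ∨ x = ω ∨ x = ω + 1 := by
    intro x
    by_contra hx
    push Not at hx
    have h5 : ({0, 1, ω, ω + 1, x} : Finset F).card = 5 := by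
      obtain ⟨x0, x1, x2, x3⟩ := hx
      rw [Finset.card_insert_of_notMem, Finset.card_insert_of_notMem,
        Finset.card_insert_of_notMem, Finset.card_insert_of_notMem, Finset.card_singleton] <;>
        simp [Ne.symm hω.1, Ne.symm hω.2, Ne.symm hω1.1, Ne.symm hω1.2.1, Ne.symm hω1.2.2,
          x0.symm, x1.symm, x2.symm, x3.symm, zero_ne_one]
    have := Finset.card_le_univ ({0, 1, ω, ω + 1, x} : Finset F)
    omega
  have hωω : ω * ω = ω + 1 := by
    rcases hall (ω * ω) with e | e | e | e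
    · exact absurd (mul_self_eq_zero.1 e) hω.1
    · rcases mul_self_eq_one_iff.1 e with e' | e'
      · exact absurd e' hω.2
      · exact absurd (e'.trans (CharTwo.neg_eq 1)) hω.2
    · exact absurd (mul_left_cancel₀ hω.1 (e.trans (mul_one ω).symm)) hω.2
    · exact e
  let L : F → V := fun x => if x = 0 then 0 else if x = 1 then w₀ else if x = ω then B w₀
    else B w₀ + w₀
  have L0 : L 0 = 0 := if_pos rfl
  have L1 : L 1 = w₀ := by simp [L]
  have Lω : L ω = B w₀ := by simp [L, hω.1, hω.2]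
  have Lω1 : L (ω + 1) = B w₀ + w₀ := by simp [L, hω1.1, hω1.2.2, hω.1]
  have c2' : ∀ a b : V, a + (a + b) = b := fun a b => by rw [← add_assoc, h.char2, zero_add]
  have c3' : ∀ a b : V, a + (b + a) = b := fun a b => by rw [add_comm b a, c2']
  have f2 : ∀ a b : F, a + (a + b) = b := fun a b => by rw [← add_assoc, two, zero_add]
  have f3 : ∀ a b : F, a + (b + a) = b := fun a b => by rw [add_comm b a, f2]
  have Ladd : ∀ x y, L (x + y) = L x + L y := by
    intro x y
    rcases hall x with rfl | rfl | rfl | rfl <;> rcases hall y with rfl | rfl | rfl | rfl <;>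
      simp [L0, L1, Lω, Lω1, two, h.char2, c2', c3', f2, f3, add_comm, add_left_comm]
  have hBw : ρ a1 (B w₀) = B w₀ := BW _
  have LW : ∀ x, ρ a1 (L x) = L x := by
    intro x
    rcases hall x with rfl | rfl | rfl | rfl <;> simp [L0, L1, Lω, Lω1, hw₀1, hBw]
  have B0 : B 0 = 0 := by simp only [hB, dd_zero]
  have LB : ∀ x, B (L x) = L (ω * x) := by
    intro x
    have e1 : ω * (ω + 1) = 1 := by rw [mul_add, hωω, mul_one, add_right_comm, two, zero_add]
    rcases hall x with rfl | rfl | rfl | rfl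
    · rw [mul_zero, L0, B0]
    · rw [mul_one, L1, Lω]
    · rw [Lω, hBB hw₀1, hωω, Lω1]
    · rw [Lω1, Badd, hBB hw₀1, e1, L1, add_right_comm, h.char2, zero_add]
  let M : F → V := fun y => dd ρ c1 (L y)
  have MW : ∀ y, ρ c1 (M y) = M y := fun y => fixC1 _
  let e : F × F →+ V := AddMonoidHom.mk' (fun u => L u.1 + M u.2) fun u v => by
    simp only [Prod.fst_add, Prod.snd_add, M, Ladd, dd_add]; abel
  have he : ∀ x y, e (x, y) = L x + M y := fun x y => rfl
  have hLinj : ∀ x, L x = 0 → x = 0 := by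
    intro x hx
    rcases hall x with rfl | rfl | rfl | rfl
    · rfl
    · exact absurd (L1.symm.trans hx) hw₀
    · have : B (B' w₀) = w₀ := hBB' hw₀1
      rw [hsum hw₀1, ← Lω, hx, zero_add, ← Lω, hx] at this
      exact absurd this.symm hw₀
    · have : B (B' w₀) = w₀ := hBB' hw₀1
      rw [hsum hw₀1, ← Lω1, hx, B0] at this
      exact absurd this.symm hw₀
  have hinj : Function.Injective e := by
    rw [injective_iff_map_eq_zero]
    rintro ⟨x, y⟩ hxy
    rw [he] at hxy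
    have hLM : L x = M y := h.eq_of_add hxy
    have h0 : L x = 0 := h.inter (LW x) (by rw [hLM]; exact MW y)
    have h1 : L y = 0 := by
      rw [← h.recover oa1 oc1 r1 (LW y)]
      change dd ρ a1 (M y) = 0
      rw [← hLM, h0, dd_zero]
    rw [hLinj x h0, hLinj y h1]; rfl
  have act : ∀ q v, ρ q v = v + dd ρ q v := fun q v => by
    simp only [dd]; rw [c3']
  refine ⟨F, inferInstance, inferInstance, ω, e, hF, hω.1, hω.2, hinj, ⟨by simp, fun x y => ?_⟩,
    ⟨by simp, fun x y => ?_⟩, ⟨by simp, fun x y => ?_⟩, ⟨by simp, fun x y => ?_⟩⟩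
  · rw [he, he, one_mul, one_mul, zero_mul, zero_add, map_add, LW, act a1 (M y),
      show dd ρ a1 (M y) = L y from h.recover oa1 oc1 r1 (LW y), Ladd]
    abel
  · rw [he, he, one_mul, one_mul, zero_mul, zero_add, map_add, (inW (LW x)).1, act a2 (M y),
      show dd ρ a2 (M y) = L (ω * y) from LB y, Ladd]
    abel
  · rw [he, he, one_mul, one_mul, zero_mul, add_zero, map_add, MW, act c1 (L x),
      show M (x + y) = M x + M y by simp only [M, Ladd, dd_add]]
    abel
  · have hc2 : dd ρ c2 (L x) = M ((ω + 1) * x) := by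
      rw [← h.recover oc1 oa1 s1 (fromC2 (L x))]
      change dd ρ c1 (B' (L x)) = _
      rw [hsum (LW x), LB, ← Ladd, add_mul, one_mul]
    rw [he, he, one_mul, one_mul, zero_mul, add_zero, map_add, (inW' (MW y)).1, act c2 (L x), hc2,
      show M ((ω + 1) * x + y) = M ((ω + 1) * x) + M y by simp only [M, Ladd, dd_add]]
    abel

end Cfsg.Agent.H80.CritFive
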